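import Mathlib

/-!
# Isometries of odd prime order of small rank (helper408)

`y` an isometry of odd order `r` (`r` invertible in the field) of a nondegenerate bilinear form `B` with
`B v w = ε B w v`. Then there is an isometry `z ≠ 1` with `z ^ r = 1` and `rank (z - 1) ≤ r - 1`; it preserves every
quadratic form with polar form `B` which is preserved by `y`.
-/

set_option autoImplicit false
set_option linter.unusedSectionVars false

namespace Cfsg.Agent.H408.RM

open Module

variable {F : Type*} [Field F] {V : Type*} [AddCommGroup V] [Module F V] [FiniteDimensional F V]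

/-- the sum of the powers -/
def nrm (r : ℕ) (y : Module.End F V) : Module.End F V := ∑ i ∈ Finset.range r, y ^ i

theorem nrm_mul {r : ℕ} {y : Module.End F V} (h : y ^ r = 1) : nrm r y * (y - 1) = 0 := by
  rw [nrm, geom_sum_mul, h, sub_self]

theorem mul_nrm {r : ℕ} {y : Module.End F V} (h : y ^ r = 1) : (y - 1) * nrm r y = 0 := by
  rw [nrm, mul_geom_sum, h, sub_self]

theorem pow_mod {r : ℕ} {y : Module.End F V} (h : y ^ r = 1) {i j : ℕ} (hij : i % r = j % r) : y ^ i = y ^ j := by
  rw [pow_eq_pow_mod i h, pow_eq_pow_mod j h, hij]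

theorem nrm_apply (r : ℕ) (y : Module.End F V) (v : V) : nrm r y v = ∑ i ∈ Finset.range r, (y ^ i) v := by
  rw [nrm, LinearMap.sum_apply]

theorem sub_pow_mem (y : Module.End F V) (k : ℕ) (w : V) : (y ^ k) w - w ∈ LinearMap.range (y - 1) := by
  induction k with
  | zero => simp
  | succ k ih =>
    have h1 : (y ^ (k + 1)) w - w = ((y - 1) ((y ^ k) w)) + ((y ^ k) w - w) := by
      rw [pow_succ', Module.End.mul_apply, LinearMap.sub_apply, Module.End.one_apply]; abel
    rw [h1]
    exact Submodule.add_mem _ ⟨_, rfl⟩ ih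

variable (B : LinearMap.BilinForm F V) {ε : F} (hε : ε * ε = 1) (hB : ∀ v w, B v w = ε * B w v)
  {y : Module.End F V} (hy : ∀ v w, B (y v) (y w) = B v w) {r : ℕ} (hr : Odd r) (hrF : (r : F) ≠ 0) (hyr : y ^ r = 1)

include hy in
theorem inv_pow (k : ℕ) (v w : V) : B ((y ^ k) v) ((y ^ k) w) = B v w := by
  induction k with
  | zero => simp
  | succ k ih => rw [pow_succ', Module.End.mul_apply, Module.End.mul_apply, hy, ih]

include hε hB hy hr hrF hyr in
/-- there is a cyclic submodule which is not totally isotropic -/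
theorem exists_cyclic (hnd : ∀ v, (∀ w, B v w = 0) → v = 0) (hy1 : y ≠ 1) :
    ∃ u ∈ LinearMap.range (y - 1), ∃ k : ℕ, B u ((y ^ k) u) ≠ 0 := by
  by_contra hcon
  push Not at hcon
  apply hy1
  have hrpos : 0 < r := hr.pos
  -- the form vanishes on `[V, y]`
  have key : ∀ u ∈ LinearMap.range (y - 1), ∀ v ∈ LinearMap.range (y - 1), B u v = 0 := by
    intro u hu v hv
    have hrel : ∀ v ∈ LinearMap.range (y - 1), ∀ j k, r ∣ j + k → B u ((y ^ k) v) = -(ε * B u ((y ^ j) v)) := by
      intro v hv j k hjk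
      have h3 := hcon (u + v) (Submodule.add_mem _ hu hv) k
      simp only [map_add, LinearMap.add_apply] at h3
      rw [hcon u hu k, hcon v hv k] at h3
      have h4 : B v ((y ^ k) u) = ε * B u ((y ^ j) v) := by
        rw [← inv_pow B hy j v, ← Module.End.mul_apply, ← pow_add]
        obtain ⟨c, hc⟩ := hjk
        rw [hc, pow_mul, hyr, one_pow, Module.End.one_apply, hB]
      rw [h4] at h3
      linear_combination h3
    have hshift : ∀ k, B u ((y ^ k) (y v)) = B u ((y ^ (k + 1)) v) := fun k => by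
      rw [← Module.End.mul_apply, ← pow_succ]
    have hyv : y v ∈ LinearMap.range (y - 1) := by
      obtain ⟨w, rfl⟩ := hv
      refine ⟨y w, ?_⟩
      simp
    have htwo : ∀ k, B u ((y ^ (k + 2)) v) = B u ((y ^ k) v) := by
      intro k
      have h1 : r ∣ (r - 1) * (k + 1) + (k + 1) := by
        refine ⟨k + 1, ?_⟩
        rw [← Nat.succ_mul, Nat.succ_eq_add_one, Nat.sub_add_cancel hrpos]
      have h3 := hrel (y v) hyv ((r - 1) * (k + 1)) (k + 1) h1
      rw [hshift, hshift] at h3
      have h4 := hrel v hv ((r - 1) * (k + 1) + 1) k (by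
        have h5 : (r - 1) * (k + 1) + 1 + k = (r - 1) * (k + 1) + (k + 1) := by ring
        rw [h5]; exact h1)
      exact h3.trans h4.symm
    have heven : ∀ m, B u ((y ^ (2 * m)) v) = B u v := by
      intro m
      induction m with
      | zero => simp
      | succ m ih => rw [mul_add, mul_one, htwo, ih]
    have hodd : ∀ m, B u ((y ^ (2 * m + 1)) v) = B u (y v) := by
      intro m
      induction m with
      | zero => simp
      | succ m ih => rw [show 2 * (m + 1) + 1 = 2 * m + 1 + 2 from by ring, htwo, ih]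
    have hone : B u (y v) = B u v := by
      obtain ⟨m, hm⟩ := hr
      rw [← hodd m, ← hm, hyr, Module.End.one_apply]
    have hall : ∀ k, B u ((y ^ k) v) = B u v := by
      intro k
      rcases Nat.even_or_odd k with ⟨m, hm⟩ | ⟨m, hm⟩
      · rw [hm, ← two_mul, heven]
      · rw [hm, hodd, hone]
    have hsum : (r : F) * B u v = 0 := by
      have h1 : B u (nrm r y v) = 0 := by
        obtain ⟨w, rfl⟩ := hv
        rw [← Module.End.mul_apply, nrm_mul hyr, LinearMap.zero_apply, map_zero]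
      rw [nrm_apply, map_sum, Finset.sum_congr rfl (fun k _ => hall k), Finset.sum_const, Finset.card_range,
        nsmul_eq_mul] at h1
      exact h1
    exact (mul_eq_zero.1 hsum).resolve_left hrF
  -- hence `y = 1`
  rw [← sub_eq_zero]
  apply LinearMap.ext
  intro v
  rw [LinearMap.zero_apply]
  apply hnd
  intro w
  have h1 : B ((y - 1) v) (nrm r y w) = 0 := by
    have h3 : y (nrm r y w) = nrm r y w := by
      have h4 : (y - 1) (nrm r y w) = 0 := by rw [← Module.End.mul_apply, mul_nrm hyr, LinearMap.zero_apply]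
      rw [LinearMap.sub_apply, Module.End.one_apply] at h4
      exact sub_eq_zero.1 h4
    rw [LinearMap.sub_apply, Module.End.one_apply, map_sub, LinearMap.sub_apply]
    nth_rewrite 1 [← h3]
    rw [hy, sub_self]
  have h3 : B ((y - 1) v) (nrm r y w - (r : F) • w) = 0 := by
    have h4 : nrm r y w - (r : F) • w = ∑ k ∈ Finset.range r, ((y ^ k) w - w) := by
      rw [Finset.sum_sub_distrib, nrm_apply, Finset.sum_const, Finset.card_range, Nat.cast_smul_eq_nsmul]
    rw [h4, map_sum]
    exact Finset.sum_eq_zero fun k _ => key _ ⟨v, rfl⟩ _ (sub_pow_mem y k w)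
  rw [map_sub, h1, zero_sub, neg_eq_zero, map_smul, smul_eq_mul] at h3
  exact (mul_eq_zero.1 h3).resolve_left hrF

include hε hB hy hr hrF hyr in
/-- **a nondegenerate invariant subspace of small dimension** -/
theorem exists_subspace (hnd : ∀ v, (∀ w, B v w = 0) → v = 0) (hy1 : y ≠ 1) :
    ∃ U : Submodule F V, (∀ u ∈ U, y u ∈ U) ∧ (∃ u ∈ U, y u ≠ u) ∧ finrank F U ≤ r - 1 ∧
      (∀ x ∈ U, (∀ u ∈ U, B u x = 0) → x = 0) := by
  obtain ⟨u, hu, k0, hk0⟩ := exists_cyclic B hε hB hy hr hrF hyr hnd hy1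
  have hrpos : 0 < r := hr.pos
  set C : Submodule F V := Submodule.span F (Set.range fun i : Fin (r - 1) => (y ^ (i : ℕ)) u) with hC
  have hnu : nrm r y u = 0 := by
    obtain ⟨w, rfl⟩ := hu
    rw [← Module.End.mul_apply, nrm_mul hyr, LinearMap.zero_apply]
  -- all powers
  have hmem' : ∀ i : ℕ, i < r → (y ^ i) u ∈ C := by
    intro i hi
    by_cases h : i < r - 1
    · exact Submodule.subset_span ⟨⟨i, h⟩, rfl⟩
    · have hi' : i = r - 1 := by omega
      subst hi'
      have h1 : nrm r y u = ∑ i ∈ Finset.range (r - 1), (y ^ i) u + (y ^ (r - 1)) u := by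
        rw [nrm_apply, ← Finset.sum_range_succ, Nat.sub_add_cancel hrpos]
      rw [hnu] at h1
      have h3 : (y ^ (r - 1)) u = -∑ i ∈ Finset.range (r - 1), (y ^ i) u := by
        rw [eq_neg_iff_add_eq_zero, add_comm]; exact h1.symm
      rw [h3]
      refine C.neg_mem (C.sum_mem fun j hj => Submodule.subset_span ⟨⟨j, Finset.mem_range.1 hj⟩, rfl⟩)
  have hmem : ∀ i : ℕ, (y ^ i) u ∈ C := by
    intro i
    rw [pow_eq_pow_mod i hyr]
    exact hmem' _ (Nat.mod_lt _ hrpos)
  have hCy : ∀ v ∈ C, y v ∈ C := by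
    intro v hv
    have h1 : C ≤ C.comap y := by
      conv_lhs => rw [hC]
      rw [Submodule.span_le]
      rintro _ ⟨i, rfl⟩
      show y ((y ^ (i : ℕ)) u) ∈ C
      rw [← Module.End.mul_apply, ← pow_succ']
      exact hmem _
    exact h1 hv
  have hCpow : ∀ (i : ℕ), ∀ v ∈ C, (y ^ i) v ∈ C := by
    intro i
    induction i with
    | zero => intro v hv; simpa using hv
    | succ i ih => intro v hv; rw [pow_succ', Module.End.mul_apply]; exact hCy _ (ih v hv)
  have hCle : C ≤ LinearMap.range (y - 1) := by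
    rw [hC, Submodule.span_le]
    rintro _ ⟨i, rfl⟩
    show (y ^ (i : ℕ)) u ∈ LinearMap.range (y - 1)
    have h1 := Submodule.add_mem _ (sub_pow_mem y i u) hu
    rwa [sub_add_cancel] at h1
  have hCr : finrank F C ≤ r - 1 := by
    rw [hC]
    exact (finrank_range_le_card _).trans (by rw [Fintype.card_fin])
  -- the radical
  set R : Submodule F V := C ⊓ B.orthogonal C with hR
  have hRinv : R ∈ Module.End.invtSubmodule y := by
    rw [Module.End.mem_invtSubmodule]
    intro v hv
    refine ⟨hCy v hv.1, fun c hc => ?_⟩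
    have h1 : B ((y ^ (r - 1)) c) v = 0 := hv.2 _ (hCpow _ c hc)
    have h3 := hy ((y ^ (r - 1)) c) v
    rw [← Module.End.mul_apply, ← pow_succ', Nat.sub_add_cancel hrpos, hyr, Module.End.one_apply, h1] at h3
    exact h3
  have hss : y.IsSemisimple := by
    have hsep : (Polynomial.X ^ r - Polynomial.C (1 : F)).Separable :=
      Polynomial.separable_X_pow_sub_C 1 hrF one_ne_zero
    refine Module.End.isSemisimple_of_squarefree_aeval_eq_zero hsep.squarefree ?_
    simp [hyr]
  obtain ⟨q, hq, hRq⟩ := Module.End.isSemisimple_iff.1 hss R hRinv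
  rw [Module.End.mem_invtSubmodule] at hq
  have hdec : ∀ c ∈ C, ∃ ρ ∈ R, ∃ u' ∈ C ⊓ q, c = ρ + u' := by
    intro c hc
    obtain ⟨ρ, hρ, u', hu', rfl⟩ := Submodule.mem_sup.1 (show c ∈ R ⊔ q by rw [hRq.sup_eq_top]; trivial)
    refine ⟨ρ, hρ, u', ⟨?_, hu'⟩, rfl⟩
    have h1 := C.sub_mem hc hρ.1
    rwa [add_sub_cancel_left] at h1
  have hnd' : ∀ x ∈ C ⊓ q, (∀ u ∈ C ⊓ q, B u x = 0) → x = 0 := by
    intro x hx hx0
    have h1 : x ∈ R := by
      refine ⟨hx.1, fun c hc => ?_⟩
      obtain ⟨ρ, hρ, u', hu', rfl⟩ := hdec c hc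
      show B (ρ + u') x = 0
      rw [map_add, LinearMap.add_apply, hx0 u' hu', add_zero, hB]
      have h3 : B x ρ = 0 := hρ.2 x hx.1
      rw [h3, mul_zero]
    have h3 : x ∈ R ⊓ q := ⟨h1, hx.2⟩
    rw [hRq.inf_eq_bot] at h3
    exact (Submodule.mem_bot F).1 h3
  refine ⟨C ⊓ q, fun v hv => ⟨hCy v hv.1, hq hv.2⟩, ?_, (Submodule.finrank_mono inf_le_left).trans hCr, hnd'⟩
  by_contra hcon
  push Not at hcon
  -- `C ⊓ q = 0`
  have h0 : ∀ v ∈ C ⊓ q, v = 0 := by
    intro v hv
    obtain ⟨w, hw⟩ := hCle hv.1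
    have h1 : nrm r y v = 0 := by rw [← hw, ← Module.End.mul_apply, nrm_mul hyr, LinearMap.zero_apply]
    have h3 : ∀ i : ℕ, (y ^ i) v = v := by
      intro i
      induction i with
      | zero => simp
      | succ i ih => rw [pow_succ, Module.End.mul_apply, hcon v hv, ih]
    rw [nrm_apply, Finset.sum_congr rfl (fun k _ => h3 k), Finset.sum_const, Finset.card_range,
      ← Nat.cast_smul_eq_nsmul F] at h1
    exact (smul_eq_zero.1 h1).resolve_left hrF
  apply hk0
  have hu' : u ∈ C := by have := hmem 0; simpa using this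
  have h1 : ∀ c ∈ C, c ∈ R := by
    intro c hc
    obtain ⟨ρ, hρ, u', hu', rfl⟩ := hdec c hc
    rw [h0 u' hu', add_zero]; exact hρ
  exact (h1 _ (hmem k0)).2 u hu'

include hε hB hy hr hrF hyr in
/-- **isometries of small rank** -/
theorem exists_small (hnd : ∀ v, (∀ w, B v w = 0) → v = 0) (hy1 : y ≠ 1) :
    ∃ z : Module.End F V, z ^ r = 1 ∧ z ≠ 1 ∧ finrank F (LinearMap.range (z - 1)) ≤ r - 1 ∧
      (∀ v w, B (z v) (z w) = B v w) ∧
      ∀ Q : V → F, (∀ a b, Q (a + b) = Q a + Q b + B a b) → (∀ v, Q (y v) = Q v) → ∀ v, Q (z v) = Q v := by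
  obtain ⟨U, hUy, ⟨u0, hu0, hu1⟩, hUr, hUnd⟩ := exists_subspace B hε hB hy hr hrF hyr hnd hy1
  have hrefl : B.IsRefl := by
    intro v w h
    rw [hB, h, mul_zero]
  have hdis : Disjoint U (B.orthogonal U) := by
    rw [Submodule.disjoint_def]
    intro x hx hx'
    exact hUnd x hx fun u hu => hx' u hu
  have hc : IsCompl U (B.orthogonal U) := (LinearMap.BilinForm.isCompl_orthogonal_iff_disjoint hrefl).2 hdis
  let z : Module.End F V := LinearMap.ofIsCompl hc (y.domRestrict U) (B.orthogonal U).subtype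
  have hzu : ∀ u ∈ U, z u = y u := fun u hu => LinearMap.ofIsCompl_apply_left hc ⟨u, hu⟩
  have hzt : ∀ t ∈ B.orthogonal U, z t = t := fun t ht => LinearMap.ofIsCompl_apply_right hc ⟨t, ht⟩
  have hdec : ∀ v : V, ∃ u ∈ U, ∃ t ∈ B.orthogonal U, v = u + t := by
    intro v
    obtain ⟨u, hu, t, ht, rfl⟩ := Submodule.mem_sup.1 (show v ∈ U ⊔ B.orthogonal U by rw [hc.sup_eq_top]; trivial)
    exact ⟨u, hu, t, ht, rfl⟩
  have hpow : ∀ (i : ℕ), ∀ u ∈ U, (y ^ i) u ∈ U := by
    intro i
    induction i with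
    | zero => intro u hu; simpa using hu
    | succ i ih => intro u hu; rw [pow_succ', Module.End.mul_apply]; exact hUy _ (ih u hu)
  have hzpow : ∀ (i : ℕ), ∀ u ∈ U, ∀ t ∈ B.orthogonal U, (z ^ i) (u + t) = (y ^ i) u + t := by
    intro i
    induction i with
    | zero => intro u _ t _; simp
    | succ i ih =>
      intro u hu t ht
      rw [pow_succ', Module.End.mul_apply, ih u hu t ht, map_add, hzu _ (hpow i u hu), hzt t ht, pow_succ',
        Module.End.mul_apply]
  have hort : ∀ u ∈ U, ∀ t ∈ B.orthogonal U, B u t = 0 := fun u hu t ht => ht u hu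
  refine ⟨z, ?_, ?_, ?_, ?_, ?_⟩
  · apply LinearMap.ext
    intro v
    obtain ⟨u, hu, t, ht, rfl⟩ := hdec v
    rw [hzpow r u hu t ht, hyr]
    rfl
  · intro h
    apply hu1
    rw [← hzu u0 hu0, h]
    rfl
  · refine (Submodule.finrank_mono ?_).trans hUr
    rintro _ ⟨v, rfl⟩
    obtain ⟨u, hu, t, ht, rfl⟩ := hdec v
    rw [LinearMap.sub_apply, Module.End.one_apply, map_add, hzu u hu, hzt t ht]
    have h1 : y u + t - (u + t) = y u - u := by abel
    rw [h1]
    exact U.sub_mem (hUy u hu) hu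
  · intro v w
    obtain ⟨u, hu, t, ht, rfl⟩ := hdec v
    obtain ⟨u', hu', t', ht', rfl⟩ := hdec w
    have h1 : B t (y u') = 0 := by rw [hB, hort _ (hUy u' hu') t ht, mul_zero]
    have h3 : B t u' = 0 := by rw [hB, hort _ hu' t ht, mul_zero]
    rw [map_add z, map_add z, hzu u hu, hzt t ht, hzu u' hu', hzt t' ht']
    simp only [map_add, LinearMap.add_apply]
    rw [hy, h1, h3, hort _ (hUy u hu) t' ht', hort u hu t' ht']
  · intro Q hQ hQy v
    obtain ⟨u, hu, t, ht, rfl⟩ := hdec v
    rw [map_add, hzu u hu, hzt t ht, hQ, hQ, hQy, hort _ (hUy u hu) t ht, hort u hu t ht]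

end Cfsg.Agent.H408.RM
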